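import Cfsg.Agent.Lib.SameOrder.Basic

/-! Basic lemmas for groups with two class sizes (Itô). -/

set_option autoImplicit false

namespace Cfsg.Agent.Lib.Ito.Basic

open Subgroup

universe u

variable {G : Type u} [Group G]

/-- The centralizer of an element. -/
abbrev Cn (x : G) : Subgroup G := centralizer ({x} : Set G)

theorem mem_Cn {x g : G} : g ∈ Cn x ↔ g * x = x * g := Subgroup.mem_centralizer_singleton_iff

theorem self_mem_Cn (x : G) : x ∈ Cn x := mem_Cn.mpr rfl

theorem center_le_Cn (x : G) : center G ≤ Cn x := by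
  intro z hz
  rw [mem_Cn]
  exact (Subgroup.mem_center_iff.mp hz x).symm

theorem Cn_eq_top_iff {x : G} : Cn x = ⊤ ↔ x ∈ center G := by
  constructor
  · intro h
    rw [Subgroup.mem_center_iff]
    intro g
    have : g ∈ Cn x := by rw [h]; exact mem_top g
    exact mem_Cn.mp this
  · intro h
    rw [eq_top_iff]
    intro g _
    rw [mem_Cn]
    exact Subgroup.mem_center_iff.mp h g

theorem Cn_le_Cn_pow (x : G) (k : ℕ) : Cn x ≤ Cn (x ^ k) := by
  intro g hg
  rw [mem_Cn] at hg ⊢
  exact (show Commute g x from hg).pow_right k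

theorem mem_of_pow_mem_of_coprime {K : Subgroup G} {w : G} {a b : ℕ} (hab : a.Coprime b)
    (ha : w ^ a ∈ K) (hb : w ^ b ∈ K) : w ∈ K := by
  have h1 := Nat.gcd_eq_gcd_ab a b
  rw [hab.gcd_eq_one] at h1
  have : w = (w ^ a) ^ (Nat.gcdA a b) * (w ^ b) ^ (Nat.gcdB a b) := by
    rw [← zpow_natCast, ← zpow_natCast, ← zpow_mul, ← zpow_mul, ← zpow_add, ← h1]
    simp
  rw [this]
  exact K.mul_mem (K.zpow_mem ha _) (K.zpow_mem hb _)

/-- `x` is a `p`-element. -/
def IsElt (p : ℕ) (x : G) : Prop := ∃ a : ℕ, x ^ p ^ a = 1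

theorem IsElt.pow {p : ℕ} {x : G} (h : IsElt p x) (k : ℕ) : IsElt p (x ^ k) := by
  obtain ⟨a, ha⟩ := h
  refine ⟨a, ?_⟩
  rw [← pow_mul, mul_comm, pow_mul, ha, one_pow]

theorem IsElt.coprime {p q : ℕ} (hp : p.Prime) (hq : q.Prime) (hpq : p ≠ q) {y : G}
    (h : IsElt q y) : (orderOf y).Coprime p := by
  obtain ⟨a, ha⟩ := h
  have h1 : orderOf y ∣ q ^ a := orderOf_dvd_of_pow_eq_one ha
  have h2 : (q ^ a).Coprime p := Nat.Coprime.pow_left _ ((Nat.coprime_primes hq hp).mpr hpq.symm)
  exact Nat.Coprime.coprime_dvd_left h1 h2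

/-- Primary decomposition of an element. -/
theorem exists_decomp [Finite G] (w : G) (p : ℕ) (hp : p.Prime) :
    ∃ a m : ℕ, a.Coprime m ∧ IsElt p (w ^ m) ∧ (orderOf (w ^ a)).Coprime p ∧ a = p ^ (a.factorization p) := by
  obtain ⟨i, m, hm, ho⟩ := Nat.exists_eq_pow_mul_and_not_dvd (n := orderOf w) (orderOf_pos w).ne' p
    hp.ne_one
  have hc : (p ^ i).Coprime m :=
    Nat.Coprime.pow_left _ ((Nat.Prime.coprime_iff_not_dvd hp).mpr hm)
  refine ⟨p ^ i, m, hc, ⟨i, ?_⟩, ?_, ?_⟩
  · rw [← pow_mul, mul_comm, ← ho, pow_orderOf_eq_one]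
  · have h1 : orderOf (w ^ p ^ i) ∣ m := by
      apply orderOf_dvd_of_pow_eq_one
      rw [← pow_mul, ← ho, pow_orderOf_eq_one]
    exact Nat.Coprime.coprime_dvd_left h1 ((Nat.Prime.coprime_iff_not_dvd hp).mpr hm).symm
  · rw [hp.factorization_pow]
    simp

section TwoSizes

variable {n : ℕ}

/-- Every noncentral element has class size `n`. -/
def TwoSizes (G : Type u) [Group G] (n : ℕ) : Prop :=
  ∀ x : G, (centralizer ({x} : Set G)).index = 1 ∨ (centralizer ({x} : Set G)).index = n

theorem index_Cn (h : TwoSizes G n) {x : G} (hx : x ∉ center G) : (Cn x).index = n := by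
  rcases h x with h1 | h1
  · exact (hx (Cn_eq_top_iff.mp (Subgroup.index_eq_one.mp h1))).elim
  · exact h1

variable [Finite G]

theorem card_Cn_eq (h : TwoSizes G n) {x y : G} (hx : x ∉ center G) (hy : y ∉ center G) :
    Nat.card (Cn x) = Nat.card (Cn y) := by
  have h1 := Subgroup.card_mul_index (Cn x)
  have h2 := Subgroup.card_mul_index (Cn y)
  rw [index_Cn h hx] at h1
  rw [index_Cn h hy] at h2
  have hn0 : n ≠ 0 := by
    intro h0
    rw [h0, mul_zero] at h1
    exact Nat.card_pos.ne' h1.symm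
  exact Nat.eq_of_mul_eq_mul_right (Nat.pos_of_ne_zero hn0) (h1.trans h2.symm)

theorem Cn_eq_of_le (h : TwoSizes G n) {x y : G} (hx : x ∉ center G) (hy : y ∉ center G)
    (hle : Cn x ≤ Cn y) : Cn x = Cn y :=
  Subgroup.eq_of_le_of_card_ge hle (card_Cn_eq h hy hx).le

/-- Commuting elements of coprime orders. -/
theorem Cn_le_of_coprime (h : TwoSizes G n) {x y : G} (hx : x ∉ center G) (hc : x * y = y * x)
    (hco : (orderOf x).Coprime (orderOf y)) : Cn x ≤ Cn y := by
  obtain ⟨r, hr⟩ := exists_pow_eq_self_of_coprime hco.symm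
  have hpow : (x * y) ^ (orderOf y) = x ^ orderOf y := by
    rw [(show Commute x y from hc).mul_pow, pow_orderOf_eq_one, mul_one]
  have hxpow : x = (x * y) ^ (orderOf y * r) := by
    rw [pow_mul, hpow, hr]
  have hxy : x * y ∉ center G := by
    intro hmem
    apply hx
    rw [hxpow]
    exact (center G).pow_mem hmem _
  have hle : Cn (x * y) ≤ Cn x := by
    conv_rhs => rw [hxpow]
    exact Cn_le_Cn_pow _ _
  have heq := Cn_eq_of_le h hxy hx hle
  intro g hg
  have h1 : g ∈ Cn (x * y) := by rw [heq]; exact hg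
  rw [mem_Cn] at h1 hg ⊢
  have h2 : x * (g * y) = x * (y * g) := by
    calc x * (g * y) = (x * g) * y := by group
      _ = (g * x) * y := by rw [hg]
      _ = g * (x * y) := by group
      _ = (x * y) * g := h1
      _ = x * (y * g) := by group
  exact mul_left_cancel h2

/-- Every noncentral element has a noncentral primary power. -/
theorem exists_primary_power (w : G) (hw : w ∉ center G) :
    ∃ r k : ℕ, r.Prime ∧ IsElt r (w ^ k) ∧ w ^ k ∉ center G := by
  induction hm : orderOf w using Nat.strong_induction_on generalizing w with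
  | _ m ih =>
    have hw1 : w ≠ 1 := fun h => hw (by rw [h]; exact (center G).one_mem)
    have hm1 : orderOf w ≠ 1 := by rwa [Ne, orderOf_eq_one_iff]
    obtain ⟨r, hr, hrd⟩ := Nat.exists_prime_and_dvd hm1
    obtain ⟨a, b, hab, hb, hao, ha⟩ := exists_decomp w r hr
    by_cases hu : w ^ b ∈ center G
    · -- then w ^ a is not central
      have hv : w ^ a ∉ center G := fun hv =>
        hw (mem_of_pow_mem_of_coprime hab hv hu)
      have hlt : orderOf (w ^ a) < m := by
        rw [← hm, orderOf_pow' _ (by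
          intro h0
          rw [h0] at hab
          have : b = 1 := by simpa using hab
          rw [this, pow_one] at hu
          exact hw hu)]
        apply Nat.div_lt_self (orderOf_pos w)
        -- r divides the gcd
        have hane : a ≠ 1 := by
          intro h1
          rw [h1, pow_one] at hao
          exact (Nat.Prime.coprime_iff_not_dvd hr).mp hao.symm hrd
        have hrda : r ∣ a := by
          rw [ha]
          apply dvd_pow_self
          intro h0
          rw [h0, pow_zero] at ha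
          exact hane ha
        have := Nat.dvd_gcd hrd hrda
        exact lt_of_lt_of_le hr.one_lt (Nat.le_of_dvd (Nat.gcd_pos_of_pos_left _ (orderOf_pos w)) this)
      obtain ⟨r', k', hr', he, hn⟩ := ih _ hlt (w ^ a) hv rfl
      refine ⟨r', a * k', hr', ?_, ?_⟩
      · rwa [pow_mul]
      · rwa [pow_mul]
    · exact ⟨r, b, hr, hb, hu⟩

end TwoSizes

end Cfsg.Agent.Lib.Ito.Basic
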