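import Cfsg.Agent.Lib.Ito.Basic

/-! Itô's theorem: no mixed commuting pairs in a group with two class sizes. -/

set_option autoImplicit false

namespace Cfsg.Agent.Lib.Ito.CA

open Subgroup Cfsg.Agent.Lib.Ito.Basic Cfsg.Agent.Lib.SameOrder.Basic

universe u

/-- Cross inequality gives an inequality of products. -/
theorem prod_lt_prod_of_cross {ι : Type*} [DecidableEq ι] (s : Finset ι) (f g : ι → ℕ)
    (hg : ∀ i ∈ s, 0 < g i)
    (hcross : ∀ i ∈ s, ∀ j ∈ s, i ≠ j → f i < g j) {a b : ι} (ha : a ∈ s) (hb : b ∈ s)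
    (hab : a ≠ b) : ∏ i ∈ s, f i < ∏ i ∈ s, g i := by
  obtain ⟨i₀, hi₀, hmin⟩ := Finset.exists_min_image s g ⟨a, ha⟩
  obtain ⟨i₁, hi₁, hne⟩ : ∃ i₁ ∈ s, i₁ ≠ i₀ := by
    by_cases h : a = i₀
    · exact ⟨b, hb, fun hb' => hab (h.trans hb'.symm)⟩
    · exact ⟨a, ha, h⟩
  have hi₁' : i₁ ∈ s.erase i₀ := Finset.mem_erase.mpr ⟨hne, hi₁⟩
  have hsplit : ∀ F : ι → ℕ, ∏ i ∈ s, F i = F i₀ * (F i₁ * ∏ i ∈ (s.erase i₀).erase i₁, F i) := by
    intro F
    rw [Finset.mul_prod_erase _ _ hi₁', Finset.mul_prod_erase _ _ hi₀]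
  rw [hsplit f, hsplit g]
  have h1 : f i₀ < g i₁ := hcross _ hi₀ _ hi₁ hne.symm
  have h2 : f i₁ < g i₀ := hcross _ hi₁ _ hi₀ hne
  have h3 : ∏ i ∈ (s.erase i₀).erase i₁, f i ≤ ∏ i ∈ (s.erase i₀).erase i₁, g i := by
    apply Finset.prod_le_prod'
    intro i hi
    have hi2 := Finset.mem_of_mem_erase hi
    have hi3 : i ≠ i₀ := (Finset.mem_erase.mp hi2).1
    have hi4 : i ∈ s := Finset.mem_of_mem_erase hi2
    exact (hcross _ hi4 _ hi₀ hi3).le.trans (hmin i hi4)
  have h4 : 0 < ∏ i ∈ (s.erase i₀).erase i₁, g i :=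
    Finset.prod_pos (fun i hi => hg i (Finset.mem_of_mem_erase (Finset.mem_of_mem_erase hi)))
  have h5 : f i₁ * ∏ i ∈ (s.erase i₀).erase i₁, f i ≤ g i₀ * ∏ i ∈ (s.erase i₀).erase i₁, g i :=
    Nat.mul_le_mul h2.le h3
  have h6 : 0 < g i₀ * ∏ i ∈ (s.erase i₀).erase i₁, g i := Nat.mul_pos (hg _ hi₀) h4
  calc f i₀ * (f i₁ * ∏ i ∈ (s.erase i₀).erase i₁, f i)
      ≤ f i₀ * (g i₀ * ∏ i ∈ (s.erase i₀).erase i₁, g i) := Nat.mul_le_mul_left _ h5
    _ < g i₁ * (g i₀ * ∏ i ∈ (s.erase i₀).erase i₁, g i) := Nat.mul_lt_mul_of_pos_right h1 h6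
    _ = g i₀ * (g i₁ * ∏ i ∈ (s.erase i₀).erase i₁, g i) := by ring

/-- A group action all of whose stabilizers have index `f`. -/
theorem dvd_card_of_index_stabilizer {H X : Type*} [Group H] [Finite H] [MulAction H X] [Finite X]
    (f : ℕ) (hf : ∀ x : X, (MulAction.stabilizer H x).index = f) : f ∣ Nat.card X := by
  classical
  letI := Fintype.ofFinite X
  letI := Fintype.ofFinite H
  letI := Fintype.ofFinite (MulAction.orbitRel.Quotient H X)
  rw [Nat.card_congr (MulAction.selfEquivSigmaOrbits H X), Nat.card_sigma]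
  apply Finset.dvd_sum
  intro ω _
  have h2 := MulAction.index_stabilizer H (Quotient.out ω)
  rw [hf] at h2
  rw [h2, Nat.card_coe_set_eq]

variable {G : Type u} [Group G] {n : ℕ}

theorem ri_ne [Finite G] (H K : Subgroup G) : H.relIndex K ≠ 0 := by
  rw [Subgroup.relIndex]; exact Subgroup.index_ne_zero_of_finite

theorem card_eq_card_mul_relIndex {H K : Subgroup G} (hHK : H ≤ K) :
    Nat.card K = Nat.card H * H.relIndex K := by
  have h1 := Subgroup.card_mul_index (H.subgroupOf K)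
  rw [Subgroup.relIndex, ← h1]
  congr 1
  exact Nat.card_congr (Subgroup.subgroupOfEquivOfLe hHK).toEquiv

theorem coprime_orderOf_of_elt {p : ℕ} {x w : G} (hx : IsElt p x) (hw : (orderOf w).Coprime p) :
    (orderOf x).Coprime (orderOf w) := by
  obtain ⟨a, ha⟩ := hx
  have h1 : orderOf x ∣ p ^ a := orderOf_dvd_of_pow_eq_one ha
  exact Nat.Coprime.coprime_dvd_left h1 (Nat.Coprime.pow_left _ hw.symm)

/-- The centralizer in a mixed pair is commutative. -/
theorem comm_of_mixed [Finite G] (h : TwoSizes G n) {p q : ℕ} (hp : p.Prime) (hq : q.Prime) (hpq : p ≠ q)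
    {x y : G} (hxp : IsElt p x) (hyq : IsElt q y) (hx : x ∉ center G) (hy : y ∉ center G)
    (hc : x * y = y * x) : ∀ a ∈ Cn x, ∀ b ∈ Cn x, a * b = b * a := by
  have hCeq : Cn x = Cn y := Cn_eq_of_le h hx hy
    (Cn_le_of_coprime h hx hc (coprime_orderOf_of_elt hxp (hyq.coprime hp hq hpq)))
  intro a ha b hb
  obtain ⟨i, m, hco, hup, hvo, _⟩ := exists_decomp a p hp
  have ha' : a * x = x * a := mem_Cn.mp ha
  have hay : a * y = y * a := mem_Cn.mp (by rw [← hCeq]; exact ha)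
  have hv : b ∈ Cn (a ^ i) := Cn_le_of_coprime h hx
    (((show Commute a x from ha').pow_left i).eq.symm) (coprime_orderOf_of_elt hxp hvo) hb
  have hu : b ∈ Cn (a ^ m) := Cn_le_of_coprime h hy
    (((show Commute a y from hay).pow_left m).eq.symm)
    (coprime_orderOf_of_elt hyq (hup.coprime hq hp hpq.symm)) (by rw [← hCeq]; exact hb)
  have hab : a ∈ Cn b := by
    apply mem_of_pow_mem_of_coprime hco
    · rw [mem_Cn]; exact (mem_Cn.mp hv).symm
    · rw [mem_Cn]; exact (mem_Cn.mp hu).symm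
  exact mem_Cn.mp hab

theorem dvd_relIndex_of_elt {p : ℕ} (hp : p.Prime) {H : Subgroup G} {w : G} (hwH : w ∈ H)
    (hw : w ∉ center G) (he : IsElt p w) : p ∣ (center G).relIndex H := by
  obtain ⟨a, ha⟩ := he
  let w' : ↥H ⧸ (center G).subgroupOf H := ((⟨w, hwH⟩ : H) : ↥H ⧸ (center G).subgroupOf H)
  have h1 : w' ^ p ^ a = 1 := by
    show ((((⟨w, hwH⟩ : H) ^ p ^ a : H)) : ↥H ⧸ (center G).subgroupOf H) = 1
    have : (⟨w, hwH⟩ : H) ^ p ^ a = 1 := Subtype.ext (by simpa using ha)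
    rw [this]
    rfl
  have h2 : w' ≠ 1 := by
    intro h0
    rw [QuotientGroup.eq_one_iff] at h0
    exact hw h0
  have h3 : orderOf w' ∣ p ^ a := orderOf_dvd_of_pow_eq_one h1
  obtain ⟨k, _, hk⟩ := (Nat.dvd_prime_pow hp).mp h3
  have hk0 : k ≠ 0 := by
    rintro rfl
    rw [pow_zero, orderOf_eq_one_iff] at hk
    exact h2 hk
  have h4 : p ∣ orderOf w' := by
    rw [hk]; exact dvd_pow_self _ hk0
  rw [Subgroup.relIndex, Subgroup.index_eq_card]
  exact h4.trans (orderOf_dvd_natCard w')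

theorem exists_elt_of_dvd [Finite G] {q : ℕ} (hq : q.Prime) {H : Subgroup G} (hZ : center G ≤ H)
    (hd : q ∣ (center G).relIndex H) : ∃ w ∈ H, w ∉ center G ∧ IsElt q w := by
  haveI : Fact q.Prime := ⟨hq⟩
  rw [Subgroup.relIndex, Subgroup.index_eq_card] at hd
  obtain ⟨z, hz⟩ := exists_prime_orderOf_dvd_card' q hd
  obtain ⟨⟨u, huH⟩, rfl⟩ := QuotientGroup.mk_surjective z
  have h1 : ((⟨u, huH⟩ : H) ^ q : H) ∈ (center G).subgroupOf H := by
    rw [← QuotientGroup.eq_one_iff, QuotientGroup.mk_pow, ← hz]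
    exact pow_orderOf_eq_one _
  have h1' : u ^ q ∈ center G := by simpa [Subgroup.mem_subgroupOf] using h1
  obtain ⟨v, ⟨a, hva⟩, huv, hv⟩ := exists_lift (center G) q h1'
  have huZ : u ∉ center G := by
    intro hu
    have : ((⟨u, huH⟩ : H) : ↥H ⧸ (center G).subgroupOf H) = 1 := by
      rw [QuotientGroup.eq_one_iff]; exact hu
    rw [this, orderOf_one] at hz
    exact hq.ne_one hz.symm
  refine ⟨v, ?_, ?_, a, ?_⟩
  · have : v = u * (u⁻¹ * v) := by group
    rw [this]
    exact H.mul_mem huH (hZ huv)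
  · intro hv'
    apply huZ
    have : u = v * (u⁻¹ * v)⁻¹ := by group
    rw [this]
    exact (center G).mul_mem hv' ((center G).inv_mem huv)
  · rw [← hva]; exact pow_orderOf_eq_one v

theorem relIndex_eq [Finite G] (h : TwoSizes G n) {x y : G} (hx : x ∉ center G) (hy : y ∉ center G) :
    (center G).relIndex (Cn x) = (center G).relIndex (Cn y) := by
  have h1 := Subgroup.relIndex_mul_index (center_le_Cn x)
  have h2 := Subgroup.relIndex_mul_index (center_le_Cn y)
  rw [index_Cn h hx] at h1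
  rw [index_Cn h hy] at h2
  have hn0 : 0 < n := by
    have := Subgroup.index_ne_zero_of_finite (H := Cn x)
    rw [index_Cn h hx] at this
    exact Nat.pos_of_ne_zero this
  exact Nat.eq_of_mul_eq_mul_right hn0 (h1.trans h2.symm)

/-- If there is a mixed pair then all centralizers of noncentral elements are commutative. -/
theorem ca_of_mixed [Finite G] (h : TwoSizes G n) {p q : ℕ} (hp : p.Prime) (hq : q.Prime) (hpq : p ≠ q)
    {x y : G} (hxp : IsElt p x) (hyq : IsElt q y) (hx : x ∉ center G) (hy : y ∉ center G)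
    (hc : x * y = y * x) {w : G} (hw : w ∉ center G) : ∀ a ∈ Cn w, ∀ b ∈ Cn w, a * b = b * a := by
  obtain ⟨r, k, hr, hre, hrn⟩ := exists_primary_power w hw
  have hCeq : Cn w = Cn (w ^ k) := Cn_eq_of_le h hw hrn (Cn_le_Cn_pow w k)
  rw [hCeq]
  have hpd : p ∣ (center G).relIndex (Cn (w ^ k)) := by
    rw [relIndex_eq h hrn hx]
    exact dvd_relIndex_of_elt hp (self_mem_Cn x) hx hxp
  have hqd : q ∣ (center G).relIndex (Cn (w ^ k)) := by
    rw [relIndex_eq h hrn hx]
    exact dvd_relIndex_of_elt hq (mem_Cn.mpr hc.symm) hy hyq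
  by_cases hrp : r = p
  · obtain ⟨v, hvC, hvZ, hvq⟩ := exists_elt_of_dvd hq (center_le_Cn _) hqd
    exact comm_of_mixed h hr hq (hrp ▸ hpq) hre hvq hrn hvZ (mem_Cn.mp hvC).symm
  · obtain ⟨v, hvC, hvZ, hvq⟩ := exists_elt_of_dvd hp (center_le_Cn _) hpd
    exact comm_of_mixed h hr hp hrp hre hvq hrn hvZ (mem_Cn.mp hvC).symm

section CA

variable [Finite G] (hCA : ∀ w : G, w ∉ center G → ∀ a ∈ Cn w, ∀ b ∈ Cn w, a * b = b * a)

include hCA

theorem Cn_eq_of_mem (h : TwoSizes G n) {v w : G} (hv : v ∉ center G) (hw : w ∉ center G)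
    (hvw : v ∈ Cn w) : Cn w = Cn v := by
  apply Cn_eq_of_le h hw hv
  intro a ha
  rw [mem_Cn]
  exact hCA w hw a ha v hvw

theorem relIndex_le (h : TwoSizes G n) {x g : G} (hx : x ∉ center G) (hg : g ∉ Cn x) :
    (center G).relIndex (Cn x) ≤ n := by
  have hgZ : g ∉ center G := fun hgZ => hg (center_le_Cn x hgZ)
  have hinf : Cn g ⊓ Cn x = center G := by
    apply le_antisymm
    · intro a ha
      by_contra haZ
      have h1 := Cn_eq_of_mem hCA h haZ hgZ ha.1
      have h2 := Cn_eq_of_mem hCA h haZ hx ha.2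
      apply hg
      rw [h2, ← h1]
      exact self_mem_Cn g
    · exact le_inf (center_le_Cn g) (center_le_Cn x)
  rw [← hinf, Subgroup.inf_relIndex_right, ← index_Cn h hgZ, ← Subgroup.relIndex_top_right]
  exact Subgroup.relIndex_le_of_le_right le_top
    (by rw [Subgroup.relIndex_top_right]; exact Subgroup.index_ne_zero_of_finite)

theorem part_lt (h : TwoSizes G n) {p q : ℕ} (hp : p.Prime) (hq : q.Prime) (hpq : p ≠ q)
    {w : G} (hw : w ∉ center G) (hwp : IsElt p w) {d : ℕ}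
    (hd : ∀ x : G, x ∉ center G → (center G).relIndex (Cn x) = d) (hqd : q ∣ d) :
    p ^ n.factorization p < q ^ d.factorization q := by
  classical
  haveI hpf : Fact p.Prime := ⟨hp⟩
  haveI hqf : Fact q.Prime := ⟨hq⟩
  have hzp : IsPGroup p (zpowers w) := by
    intro g
    obtain ⟨a, ha⟩ := hwp
    refine ⟨a, ?_⟩
    obtain ⟨g, k, rfl⟩ := g
    apply Subtype.ext
    show (w ^ k) ^ p ^ a = 1
    rw [← zpow_natCast, ← zpow_mul, mul_comm, zpow_mul, zpow_natCast, ha, one_zpow]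
  obtain ⟨S, hS⟩ := IsPGroup.exists_le_sylow hzp
  have hwS : w ∈ (S : Subgroup G) := hS (mem_zpowers w)
  -- an element central modulo the center
  let Z' : Subgroup ↥(S : Subgroup G) := (center G).subgroupOf (S : Subgroup G)
  have hQp : IsPGroup p (↥(S : Subgroup G) ⧸ Z') := S.2.to_quotient Z'
  have hw' : ((⟨w, hwS⟩ : ↥(S : Subgroup G)) : ↥(S : Subgroup G) ⧸ Z') ≠ 1 := by
    intro h0
    rw [QuotientGroup.eq_one_iff] at h0
    exact hw h0
  haveI hnt : Nontrivial (↥(S : Subgroup G) ⧸ Z') := ⟨⟨_, _, hw'⟩⟩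
  haveI := hQp.center_nontrivial
  obtain ⟨⟨z', hz'⟩, hne⟩ := exists_ne (1 : center (↥(S : Subgroup G) ⧸ Z'))
  obtain ⟨z, rfl⟩ := QuotientGroup.mk_surjective z'
  have hzZ : ((z : ↥(S : Subgroup G)) : G) ∉ center G := by
    intro h0
    apply hne
    apply Subtype.ext
    show ((z : ↥(S : Subgroup G)) : ↥(S : Subgroup G) ⧸ Z') = 1
    rw [QuotientGroup.eq_one_iff]
    exact h0
  have hnorm : ∀ s : ↥(S : Subgroup G), ∃ u ∈ center G, (s : G) * z * (s : G)⁻¹ = z * u := by
    intro s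
    have h1 := Subgroup.mem_center_iff.mp hz' (s : ↥(S : Subgroup G) ⧸ Z')
    have h2 : ((s * z : ↥(S : Subgroup G)) : ↥(S : Subgroup G) ⧸ Z') =
        ((z * s : ↥(S : Subgroup G)) : ↥(S : Subgroup G) ⧸ Z') := h1
    rw [QuotientGroup.eq] at h2
    have h3 : ((s : G) * z)⁻¹ * ((z : G) * s) ∈ center G := h2
    set u₀ : G := ((s : G) * z)⁻¹ * ((z : G) * s) with hu₀
    refine ⟨u₀⁻¹, (center G).inv_mem h3, ?_⟩
    have h5 : (z : G) * s = s * z * u₀ := by rw [hu₀]; group
    have hcu : (s : G) * u₀⁻¹ = u₀⁻¹ * s := (Subgroup.mem_center_iff.mp ((center G).inv_mem h3) s)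
    calc (s : G) * z * (s : G)⁻¹ = (s * z * u₀) * u₀⁻¹ * (s : G)⁻¹ := by group
      _ = z * s * u₀⁻¹ * (s : G)⁻¹ := by rw [← h5]
      _ = z * (s * u₀⁻¹) * (s : G)⁻¹ := by group
      _ = z * u₀⁻¹ := by rw [hcu]; group
  set z₀ : G := ((z : ↥(S : Subgroup G)) : G) with hz₀
  have hMnorm : ∀ s : ↥(S : Subgroup G), ∀ g ∈ Cn z₀, (s : G) * g * (s : G)⁻¹ ∈ Cn z₀ := by
    intro s g hg
    obtain ⟨u, hu, he⟩ := hnorm s⁻¹
    have he' : (s : G)⁻¹ * z₀ * s = z₀ * u := by
      simpa using he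
    have hg' : g * z₀ = z₀ * g := mem_Cn.mp hg
    have huc : u * g = g * u := (Subgroup.mem_center_iff.mp hu g).symm
    rw [mem_Cn]
    have hzs : z₀ * s = s * (z₀ * u) := by
      rw [← he']; group
    calc (s : G) * g * (s : G)⁻¹ * z₀ = s * g * ((s : G)⁻¹ * z₀ * s) * (s : G)⁻¹ := by group
      _ = s * (g * z₀) * u * (s : G)⁻¹ := by rw [he']; group
      _ = s * z₀ * (g * u) * (s : G)⁻¹ := by rw [hg']; group
      _ = s * z₀ * (u * g) * (s : G)⁻¹ := by rw [huc]
      _ = (s * (z₀ * u)) * g * (s : G)⁻¹ := by group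
      _ = z₀ * ((s : G) * g * (s : G)⁻¹) := by rw [← hzs]; group
  -- the q-part of the centralizer
  let Q : Subgroup G :=
    { carrier := {a | a ∈ Cn z₀ ∧ IsElt q a}
      mul_mem' := by
        rintro a b ⟨ha, i, hi⟩ ⟨hb, j, hj⟩
        refine ⟨(Cn z₀).mul_mem ha hb, i + j, ?_⟩
        rw [(show Commute a b from hCA z₀ hzZ a ha b hb).mul_pow]
        have h1 : a ^ q ^ (i + j) = 1 := by rw [pow_add, pow_mul, hi, one_pow]
        have h2 : b ^ q ^ (i + j) = 1 := by rw [add_comm, pow_add, pow_mul, hj, one_pow]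
        rw [h1, h2, one_mul]
      one_mem' := ⟨(Cn z₀).one_mem, 0, by simp⟩
      inv_mem' := by
        rintro a ⟨ha, i, hi⟩
        exact ⟨(Cn z₀).inv_mem ha, i, by rw [inv_pow, hi, inv_one]⟩ }
  have hQS : ∀ s : ↥(S : Subgroup G), ∀ a ∈ Q, (s : G) * a * (s : G)⁻¹ ∈ Q := by
    rintro s a ⟨ha, i, hi⟩
    exact ⟨hMnorm s a ha, i, by rw [conj_pow, hi]; simp⟩
  have hQq : IsPGroup q Q := by
    rintro ⟨a, ha, i, hi⟩
    exact ⟨i, Subtype.ext hi⟩
  -- the action of S on the noncentral q-elements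
  let X : Set G := (Q : Set G) \ (center G : Set G)
  have hXmem : ∀ (s : ↥(S : Subgroup G)) (a : X), (s : G) * a * (s : G)⁻¹ ∈ X := by
    intro s a
    refine ⟨hQS s a a.2.1, fun hc => a.2.2 ?_⟩
    have := (inferInstance : (center G).Normal).conj_mem _ hc (s : G)⁻¹
    have e : (s : G)⁻¹ * ((s : G) * a * (s : G)⁻¹) * (s : G)⁻¹⁻¹ = a := by group
    rwa [e] at this
  letI : MulAction ↥(S : Subgroup G) X :=
    { smul := fun s a => ⟨(s : G) * a * (s : G)⁻¹, hXmem s a⟩
      one_smul := by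
        intro a
        apply Subtype.ext
        show ((1 : ↥(S : Subgroup G)) : G) * a * ((1 : ↥(S : Subgroup G)) : G)⁻¹ = a
        simp
      mul_smul := by
        intro s t a
        apply Subtype.ext
        show ((s * t : ↥(S : Subgroup G)) : G) * a * ((s * t : ↥(S : Subgroup G)) : G)⁻¹ =
          (s : G) * ((t : G) * a * (t : G)⁻¹) * (s : G)⁻¹
        simp only [Subgroup.coe_mul]
        group }
  have hstab : ∀ a : X, MulAction.stabilizer ↥(S : Subgroup G) a = (Cn z₀).subgroupOf S := by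
    intro a
    ext s
    rw [MulAction.mem_stabilizer_iff, Subgroup.mem_subgroupOf]
    have haZ : (a : G) ∉ center G := a.2.2
    have haC : (a : G) ∈ Cn z₀ := a.2.1.1
    have hCe : Cn z₀ = Cn (a : G) := Cn_eq_of_mem hCA h haZ hzZ haC
    rw [hCe, mem_Cn]
    constructor
    · intro hs
      have h1 : (s : G) * a * (s : G)⁻¹ = a := congrArg Subtype.val hs
      rw [mul_inv_eq_iff_eq_mul] at h1
      exact h1
    · intro hs
      apply Subtype.ext
      show (s : G) * a * (s : G)⁻¹ = a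
      rw [hs]; group
  set f := (Cn z₀).relIndex (S : Subgroup G) with hfdef
  have hfX : f ∣ Nat.card X :=
    dvd_card_of_index_stabilizer f (fun a => by rw [hstab]; rfl)
  -- numerics
  set Q₀ : Subgroup G := Q ⊓ center G with hQ₀
  set e := Q₀.relIndex Q with he
  have hcardQ : Nat.card Q = Nat.card Q₀ * e := card_eq_card_mul_relIndex inf_le_left
  have hXeq : X = (Q : Set G) \ (Q₀ : Set G) := by
    ext a
    simp [X, hQ₀]
  have hcardX : Nat.card X + Nat.card Q₀ = Nat.card Q := by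
    have h1 := Set.ncard_sdiff_add_ncard_of_subset (s := (Q₀ : Set G)) (t := (Q : Set G))
      (fun a ha => ha.1)
    rw [← hXeq] at h1
    rw [← Nat.card_coe_set_eq, ← Nat.card_coe_set_eq, ← Nat.card_coe_set_eq] at h1
    exact h1
  have hd0 : d ≠ 0 := by
    rw [← hd z₀ hzZ]; exact ri_ne _ _
  obtain ⟨v, hvC, hvZ, hvq⟩ := exists_elt_of_dvd hq (center_le_Cn z₀) (by rw [hd z₀ hzZ]; exact hqd)
  have hvQ : v ∈ Q := ⟨hvC, hvq⟩
  have he1 : e ≠ 1 := by
    intro h1
    have := (Subgroup.relIndex_eq_one.mp h1) hvQ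
    exact hvZ this.2
  have he0 : 0 < e := Nat.pos_of_ne_zero (ri_ne _ _)
  have hB : 0 < Nat.card Q₀ := Nat.card_pos
  have hcardX' : Nat.card X = Nat.card Q₀ * (e - 1) := by
    rw [Nat.mul_sub_one]
    omega
  have hfp : IsPGroup p (↥(S : Subgroup G)) := S.2
  obtain ⟨iS, hiS⟩ := IsPGroup.iff_card.mp hfp
  have hfd : f ∣ p ^ iS := by
    rw [← hiS]; exact Subgroup.relIndex_dvd_card _ _
  have hQ₀q : IsPGroup q Q₀ := hQq.to_le (fun a ha => ha.1) 
  obtain ⟨iQ, hiQ⟩ := IsPGroup.iff_card.mp hQ₀q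
  have hcop : f.Coprime (Nat.card Q₀) := by
    rw [hiQ]
    apply Nat.Coprime.coprime_dvd_left hfd
    exact Nat.Coprime.pow _ _ ((Nat.coprime_primes hp hq).mpr hpq)
  have hfe : f ∣ e - 1 := by
    rw [hcardX'] at hfX
    exact hcop.dvd_of_dvd_mul_left hfX
  have hfle : f ≤ e - 1 := Nat.le_of_dvd (by omega) hfe
  -- e divides d
  have hQC : Q ≤ Cn z₀ := fun a ha => ha.1
  have hed : e ∣ d := by
    have h1 : e = (center G).relIndex Q := by
      rw [he, hQ₀, inf_comm, Subgroup.inf_relIndex_right]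
    have h2 : (center G).relIndex Q = (center G).relIndex (Q ⊔ center G) :=
      (Subgroup.relIndex_sup_right (H := Q) (K := center G)).symm
    have h3 := Subgroup.relIndex_mul_relIndex (center G) (Q ⊔ center G) (Cn z₀) le_sup_right
      (sup_le hQC (center_le_Cn z₀))
    rw [← hd z₀ hzZ, ← h3, h1, h2]
    exact Dvd.intro _ rfl
  obtain ⟨iQ', hiQ'⟩ := IsPGroup.iff_card.mp hQq
  have heq : e ∣ q ^ iQ' := by
    rw [← hiQ']; exact Subgroup.relIndex_dvd_card _ _
  obtain ⟨j, _, hj⟩ := (Nat.dvd_prime_pow hq).mp heq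
  have hele : e ≤ q ^ d.factorization q := by
    rw [hj]
    apply Nat.pow_le_pow_right hq.pos
    have hqj : q ^ j ∣ d := hj ▸ hed
    exact (Nat.Prime.pow_dvd_iff_le_factorization hq hd0).mp hqj
  -- the p-part of n
  have hnp : p ^ n.factorization p ≤ f := by
    have hn0 : n ≠ 0 := by
      rw [← index_Cn h hzZ]; exact Subgroup.index_ne_zero_of_finite
    have h1 : p ^ n.factorization p ∣ n := Nat.ordProj_dvd n p
    have h2 : n ∣ ((Cn z₀) ⊓ (S : Subgroup G)).index := by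
      rw [← index_Cn h hzZ]
      exact Subgroup.index_dvd_of_le inf_le_left
    have h3 : ((Cn z₀) ⊓ (S : Subgroup G)).index = f * (S : Subgroup G).index := by
      rw [← Subgroup.relIndex_mul_index (inf_le_right : (Cn z₀) ⊓ (S : Subgroup G) ≤ S),
        Subgroup.inf_relIndex_right]
    have h4 : p ^ n.factorization p ∣ f * (S : Subgroup G).index := by
      rw [← h3]; exact h1.trans h2
    have h5 : (p ^ n.factorization p).Coprime (S : Subgroup G).index :=
      Nat.Coprime.pow_left _ ((Nat.Prime.coprime_iff_not_dvd hp).mpr S.not_dvd_index)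
    have h6 := h5.dvd_of_dvd_mul_right h4
    exact Nat.le_of_dvd (Nat.pos_of_ne_zero (ri_ne _ _)) h6
  omega

theorem false_of_ca (h : TwoSizes G n) {p q : ℕ} (hp : p.Prime) (hq : q.Prime) (hpq : p ≠ q)
    {x y : G} (hxp : IsElt p x) (hyq : IsElt q y) (hx : x ∉ center G) (hy : y ∉ center G)
    (hxy : y ∈ Cn x) : False := by
  classical
  set d := (center G).relIndex (Cn x) with hddef
  have hd : ∀ z : G, z ∉ center G → (center G).relIndex (Cn z) = d := fun z hz => relIndex_eq h hz hx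
  have hd0 : d ≠ 0 := ri_ne _ _
  have hn0 : n ≠ 0 := by
    rw [← index_Cn h hx]; exact Subgroup.index_ne_zero_of_finite
  have hpd : p ∣ d := dvd_relIndex_of_elt hp (self_mem_Cn x) hx hxp
  have hqd : q ∣ d := dvd_relIndex_of_elt hq hxy hy hyq
  -- two distinct centralizers
  obtain ⟨g, hg⟩ : ∃ g, g ∉ Cn x := by
    by_contra hcon
    push_neg at hcon
    exact hx (Cn_eq_top_iff.mp (eq_top_iff.mpr (fun g _ => hcon g)))
  have hdn : d ≤ n := relIndex_le hCA h hx hg
  -- prime factors of n divide d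
  have hprimes : n.primeFactors ⊆ d.primeFactors := by
    intro r hr
    have hrp := Nat.prime_of_mem_primeFactors hr
    have hrn := Nat.dvd_of_mem_primeFactors hr
    rw [Nat.mem_primeFactors]
    refine ⟨hrp, ?_, hd0⟩
    by_contra hrd
    haveI : Fact r.Prime := ⟨hrp⟩
    obtain ⟨R⟩ : Nonempty (Sylow r G) := inferInstance
    have hRZ : (R : Subgroup G) ≤ center G := by
      intro a ha
      by_contra haZ
      obtain ⟨k, hk⟩ := R.2 ⟨a, ha⟩
      have hae : IsElt r a := ⟨k, by simpa using congrArg Subtype.val hk⟩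
      apply hrd
      rw [← hd a haZ]
      exact dvd_relIndex_of_elt hrp (self_mem_Cn a) haZ hae
    have h1 : (Cn x).index ∣ (R : Subgroup G).index := Subgroup.index_dvd_of_le (hRZ.trans (center_le_Cn x))
    rw [index_Cn h hx] at h1
    exact R.not_dvd_index (hrn.trans h1)
  have hnprod : n = ∏ r ∈ d.primeFactors, r ^ n.factorization r := by
    conv_lhs => rw [← Nat.prod_factorization_pow_eq_self hn0]
    apply Finsupp.prod_of_support_subset
    · rw [Nat.support_factorization]; exact hprimes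
    · intro i _; simp
  have hdprod : d = ∏ r ∈ d.primeFactors, r ^ d.factorization r := by
    conv_lhs => rw [← Nat.prod_factorization_pow_eq_self hd0]
    rfl
  have hlt : ∏ r ∈ d.primeFactors, r ^ n.factorization r < ∏ r ∈ d.primeFactors, r ^ d.factorization r := by
    apply prod_lt_prod_of_cross d.primeFactors _ _ _ _
      (Nat.mem_primeFactors.mpr ⟨hp, hpd, hd0⟩) (Nat.mem_primeFactors.mpr ⟨hq, hqd, hd0⟩) hpq
    · intro i hi
      exact pow_pos (Nat.prime_of_mem_primeFactors hi).pos _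
    · intro i hi j hj hij
      have hip := Nat.prime_of_mem_primeFactors hi
      have hid := Nat.dvd_of_mem_primeFactors hi
      have hjd := Nat.dvd_of_mem_primeFactors hj
      obtain ⟨w, _, hwZ, hwe⟩ := exists_elt_of_dvd hip (center_le_Cn x) hid
      exact part_lt hCA h hip (Nat.prime_of_mem_primeFactors hj) hij hwZ hwe hd hjd
  rw [← hnprod, ← hdprod] at hlt
  omega

end CA

end Cfsg.Agent.Lib.Ito.CA
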