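import Cfsg.Agent.Lib.Ito.CA

/-! Itô's theorem on groups with two class sizes: the structure theorem. -/

set_option autoImplicit false

namespace Cfsg.Agent.Lib.Ito.Main

open Subgroup Cfsg.Agent.Lib.Ito.Basic Cfsg.Agent.Lib.Ito.CA Cfsg.Agent.Lib.SameOrder.Basic

universe u

variable {G : Type u} [Group G] [Finite G] {n : ℕ}

/-- There is no commuting pair of noncentral elements of primary orders for distinct primes. -/
theorem not_mixed (h : TwoSizes G n) {p q : ℕ} (hp : p.Prime) (hq : q.Prime) (hpq : p ≠ q)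
    {x y : G} (hxp : IsElt p x) (hyq : IsElt q y) (hx : x ∉ center G) (hy : y ∉ center G)
    (hc : x * y = y * x) : False :=
  false_of_ca (fun _ hw => ca_of_mixed h hp hq hpq hxp hyq hx hy hc hw) h hp hq hpq hxp hyq hx hy
    (mem_Cn.mpr hc.symm)

/-- Only one prime occurs among noncentral primary elements. -/
theorem single_prime (h : TwoSizes G n) {p q : ℕ} (hp : p.Prime) (hq : q.Prime)
    {x y : G} (hxp : IsElt p x) (hyq : IsElt q y) (hx : x ∉ center G) (hy : y ∉ center G) :
    p = q := by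
  by_contra hpq
  have hpd : p ∣ (center G).relIndex (Cn y) := by
    rw [relIndex_eq h hy hx]
    exact dvd_relIndex_of_elt hp (self_mem_Cn x) hx hxp
  obtain ⟨w, hw, hwZ, hwp⟩ := exists_elt_of_dvd hp (center_le_Cn y) hpd
  exact not_mixed h hp hq hpq hwp hyq hwZ hy (mem_Cn.mp hw)

section Pow

variable {p : ℕ}

theorem Cn_pow_eq (h : TwoSizes G n) {a : G} (ha : a ^ p ∉ center G) : Cn a = Cn (a ^ p) :=
  Cn_eq_of_le h (fun h0 => ha ((center G).pow_mem h0 p)) ha (Cn_le_Cn_pow a p)

theorem comm_of_conj_eq (h : TwoSizes G n) {a g u : G} (ha : a ^ p ∉ center G)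
    (hu : u ∈ center G) (hup : u ^ p = 1) (he : g * a * g⁻¹ = a * u) : g * a = a * g := by
  have h1 : g * a ^ p * g⁻¹ = a ^ p := by
    have h2 : (g * a * g⁻¹) ^ p = g * a ^ p * g⁻¹ := conj_pow
    rw [← h2, he, (show Commute a u from (mem_center_iff.mp hu a)).mul_pow, hup, mul_one]
  have h3 : g ∈ Cn (a ^ p) := mem_Cn.mpr (by rw [mul_inv_eq_iff_eq_mul] at h1; exact h1)
  rw [← Cn_pow_eq h ha] at h3
  exact mem_Cn.mp h3

theorem isPGroup_quot (hZ : ∀ g : G, ∃ i, g ^ p ^ i ∈ center G) : IsPGroup p (G ⧸ center G) := by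
  intro q
  obtain ⟨g, rfl⟩ := QuotientGroup.mk_surjective q
  obtain ⟨i, hi⟩ := hZ g
  refine ⟨i, ?_⟩
  rw [← QuotientGroup.mk_pow, QuotientGroup.eq_one_iff]
  exact hi

theorem exists_z (hp : p.Prime) (hZ : ∀ g : G, ∃ i, g ^ p ^ i ∈ center G)
    (hne : ∃ x : G, x ∉ center G) :
    ∃ z : G, z ∉ center G ∧ z ^ p ∈ center G ∧ ∀ g : G, ∃ u ∈ center G, g * z * g⁻¹ = z * u := by
  haveI hpf : Fact p.Prime := ⟨hp⟩
  have hQ := isPGroup_quot hZ
  obtain ⟨x, hx⟩ := hne
  have hx' : ((x : G) : G ⧸ center G) ≠ 1 := by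
    intro h0
    rw [QuotientGroup.eq_one_iff] at h0
    exact hx h0
  haveI : Nontrivial (G ⧸ center G) := ⟨⟨_, _, hx'⟩⟩
  haveI hC := hQ.center_nontrivial
  have hCp : IsPGroup p (center (G ⧸ center G)) := hQ.to_subgroup _
  obtain ⟨e, he0, he⟩ := (hCp.nontrivial_iff_card).mp hC
  have hdvd : p ∣ Nat.card (center (G ⧸ center G)) := by
    rw [he]; exact dvd_pow_self _ he0.ne'
  obtain ⟨⟨c, hc⟩, hco⟩ := exists_prime_orderOf_dvd_card' (G := center (G ⧸ center G)) p hdvd
  obtain ⟨z, rfl⟩ := QuotientGroup.mk_surjective c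
  have hco' : orderOf ((z : G) : G ⧸ center G) = p := by
    rw [← hco]
    exact (Subgroup.orderOf_mk _ _).symm
  refine ⟨z, ?_, ?_, ?_⟩
  · intro hz
    have : ((z : G) : G ⧸ center G) = 1 := by
      rw [QuotientGroup.eq_one_iff]; exact hz
    rw [this, orderOf_one] at hco'
    exact hp.ne_one hco'.symm
  · rw [← QuotientGroup.eq_one_iff, QuotientGroup.mk_pow, ← hco']
    exact pow_orderOf_eq_one _
  · intro g
    refine ⟨z⁻¹ * (g * z * g⁻¹), ?_, by group⟩
    rw [← QuotientGroup.eq_one_iff]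
    have h1 := Subgroup.mem_center_iff.mp hc (g : G ⧸ center G)
    simp only [QuotientGroup.mk_mul, QuotientGroup.mk_inv]
    rw [h1]
    group

theorem pow_mem_center (h : TwoSizes G n) (hp : p.Prime)
    (hZ : ∀ g : G, ∃ i, g ^ p ^ i ∈ center G) (x : G) : x ^ p ∈ center G := by
  classical
  by_contra hx
  have hx0 : x ∉ center G := fun h0 => hx ((center G).pow_mem h0 p)
  obtain ⟨z, hzZ, hzp, hzc⟩ := exists_z hp hZ ⟨x, hx0⟩
  have hup : ∀ g u : G, u ∈ center G → g * z * g⁻¹ = z * u → u ^ p = 1 := by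
    intro g u hu he
    have h1 : (g * z * g⁻¹) ^ p = z ^ p := by
      rw [conj_pow, mem_center_iff.mp hzp g]
      group
    rw [he, (show Commute z u from (mem_center_iff.mp hu z)).mul_pow] at h1
    exact mul_left_cancel (h1.trans (mul_one _).symm)
  have hcz : ∀ a : G, a ^ p ∉ center G → z * a = a * z := by
    intro a ha
    obtain ⟨u, hu, he⟩ := hzc a⁻¹
    have hup' := hup _ _ hu he
    have he1 : z * a = a * (z * u) := by
      rw [← he]; group
    have he' : z * a * z⁻¹ = a * u := by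
      rw [he1]
      have : u * z⁻¹ = z⁻¹ * u := (mem_center_iff.mp hu z⁻¹).symm
      calc a * (z * u) * z⁻¹ = a * z * (u * z⁻¹) := by group
        _ = a * z * (z⁻¹ * u) := by rw [this]
        _ = a * u := by group
    exact comm_of_conj_eq h ha hu hup' he'
  have hCn : ∀ a : G, a ^ p ∉ center G → Cn a = Cn z := by
    intro a ha
    have ha0 : a ∉ center G := fun h0 => ha ((center G).pow_mem h0 p)
    apply Cn_eq_of_le h ha0 hzZ
    intro g hg
    have hga : g * a = a * g := mem_Cn.mp hg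
    obtain ⟨u, hu, he⟩ := hzc g
    have hup' := hup _ _ hu he
    have hcomm : Commute a z := (show Commute z a from hcz a ha).symm
    have hw : (a * z) ^ p ∉ center G := by
      rw [hcomm.mul_pow]
      intro h0
      apply ha
      have : a ^ p = a ^ p * z ^ p * (z ^ p)⁻¹ := by group
      rw [this]
      exact (center G).mul_mem h0 ((center G).inv_mem hzp)
    have he' : g * (a * z) * g⁻¹ = (a * z) * u := by
      calc g * (a * z) * g⁻¹ = (g * a) * z * g⁻¹ := by group
        _ = (a * g) * z * g⁻¹ := by rw [hga]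
        _ = a * (g * z * g⁻¹) := by group
        _ = a * (z * u) := by rw [he]
        _ = (a * z) * u := by group
    have h1 := comm_of_conj_eq h hw hu hup' he'
    rw [mem_Cn]
    have h2 : a * (g * z) = a * (z * g) := by
      calc a * (g * z) = (a * g) * z := by group
        _ = (g * a) * z := by rw [hga]
        _ = g * (a * z) := by group
        _ = (a * z) * g := h1
        _ = a * (z * g) := by group
    exact mul_left_cancel h2
  have hM : ∀ y, y ∉ Cn z → y ^ p ∈ center G := by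
    intro y hy
    by_contra hyp
    apply hy
    rw [← hCn y hyp]
    exact self_mem_Cn y
  have hxM : x ∈ Cn z := mem_Cn.mpr (hcz x hx).symm
  have hCx : Cn x = Cn z := hCn x hx
  -- M is normal
  have hMn : ∀ g : G, ∀ m ∈ Cn z, g * m * g⁻¹ ∈ Cn z := by
    intro g m hm
    obtain ⟨u, hu, he⟩ := hzc g⁻¹
    have he' : g⁻¹ * z * g = z * u := by simpa using he
    have hm' : m * z = z * m := mem_Cn.mp hm
    have huc : u * m = m * u := (mem_center_iff.mp hu m).symm
    rw [mem_Cn]
    have hzs : z * g = g * (z * u) := by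
      rw [← he']; group
    calc g * m * g⁻¹ * z = g * m * (g⁻¹ * z * g) * g⁻¹ := by group
      _ = g * (m * z) * u * g⁻¹ := by rw [he']; group
      _ = g * z * (m * u) * g⁻¹ := by rw [hm']; group
      _ = g * z * (u * m) * g⁻¹ := by rw [huc]
      _ = (g * (z * u)) * m * g⁻¹ := by group
      _ = z * (g * m * g⁻¹) := by rw [← hzs]; group
  -- the centre of M
  let A : Subgroup G := Cn z ⊓ centralizer (Cn z : Set G)
  have hAmem : ∀ a, a ∈ A ↔ a ∈ Cn z ∧ ∀ m ∈ Cn z, m * a = a * m := by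
    intro a
    rw [Subgroup.mem_inf, Subgroup.mem_centralizer_iff]
    rfl
  have hxA : x ∈ A := by
    refine (hAmem x).mpr ⟨hxM, ?_⟩
    intro m hm
    have : m ∈ Cn x := by rw [hCx]; exact hm
    exact mem_Cn.mp this
  have hZA : center G ≤ A := by
    intro a ha
    refine (hAmem a).mpr ⟨center_le_Cn z ha, ?_⟩
    intro m _
    exact (mem_center_iff.mp ha m)
  have hmem : ∀ g : G, g * x * g⁻¹ ∈ A := by
    intro g
    refine (hAmem _).mpr ⟨hMn g x hxM, ?_⟩
    intro m hm
    have h1 : g⁻¹ * m * g⁻¹⁻¹ ∈ Cn z := hMn g⁻¹ m hm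
    have h2 : g⁻¹ * m * g ∈ Cn x := by rw [hCx]; simpa using h1
    have h3 : g⁻¹ * m * g * x = x * (g⁻¹ * m * g) := mem_Cn.mp h2
    calc m * (g * x * g⁻¹) = g * (g⁻¹ * m * g * x) * g⁻¹ := by group
      _ = g * (x * (g⁻¹ * m * g)) * g⁻¹ := by rw [h3]
      _ = g * x * g⁻¹ * m := by group
  obtain ⟨y, hy⟩ : ∃ y, y ∉ Cn z := by
    by_contra hcon
    push_neg at hcon
    exact hzZ (Cn_eq_top_iff.mp (eq_top_iff.mpr (fun g _ => hcon g)))
  have hyZ : y ∉ center G := fun h0 => hy (center_le_Cn z h0)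
  have hinf : Cn y ⊓ A = center G := by
    apply le_antisymm
    · intro a ha
      obtain ⟨ha1, ha2⟩ := Subgroup.mem_inf.mp ha
      by_contra haZ
      have hle : Cn z ≤ Cn a := by
        intro m hm
        rw [mem_Cn]
        exact ((hAmem a).mp ha2).2 m hm
      have heq := Cn_eq_of_le h hzZ haZ hle
      apply hy
      rw [heq]
      rw [mem_Cn]
      exact (mem_Cn.mp ha1).symm
    · exact le_inf (center_le_Cn y) hZA
  have hle : (center G).relIndex A ≤ n := by
    rw [← hinf, Subgroup.inf_relIndex_right, ← index_Cn h hyZ, ← Subgroup.relIndex_top_right]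
    exact Subgroup.relIndex_le_of_le_right le_top
      (by rw [Subgroup.relIndex_top_right]; exact Subgroup.index_ne_zero_of_finite)
  have hT : ∀ t u : G, u ∈ center G → t * x * t⁻¹ = x * u → t ∈ Cn z := by
    intro t u hu he
    by_contra ht
    have h1 : t ^ p ∈ center G := hM t ht
    have h2 : (t * x) ^ p ∈ center G := by
      apply hM
      intro h3
      apply ht
      have : t = (t * x) * x⁻¹ := by group
      rw [this]
      exact (Cn z).mul_mem h3 ((Cn z).inv_mem hxM)
    have hcomm : Commute (t : G ⧸ center G) (x : G ⧸ center G) := by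
      have h3 : t * x = x * u * t := by
        rw [← he]; group
      show ((t : G ⧸ center G) * (x : G ⧸ center G)) = (x : G ⧸ center G) * t
      have : ((u : G) : G ⧸ center G) = 1 := (QuotientGroup.eq_one_iff u).mpr hu
      rw [← QuotientGroup.mk_mul, h3, QuotientGroup.mk_mul, QuotientGroup.mk_mul, this, mul_one]
    have h4 : ((t * x : G) : G ⧸ center G) ^ p = 1 := by
      rw [← QuotientGroup.mk_pow, QuotientGroup.eq_one_iff]; exact h2
    have h5 : ((t : G) : G ⧸ center G) ^ p = 1 := by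
      rw [← QuotientGroup.mk_pow, QuotientGroup.eq_one_iff]; exact h1
    rw [QuotientGroup.mk_mul, hcomm.mul_pow, h5, one_mul, ← QuotientGroup.mk_pow,
      QuotientGroup.eq_one_iff] at h4
    exact hx h4
  have hlt : n < (center G).relIndex A := by
    letI := Fintype.ofFinite (G ⧸ Cn z)
    letI := Fintype.ofFinite (↥A ⧸ (center G).subgroupOf A)
    let f : G ⧸ Cn z → ↥A ⧸ (center G).subgroupOf A :=
      fun q => ((⟨q.out * x * q.out⁻¹, hmem _⟩ : A) : ↥A ⧸ (center G).subgroupOf A)
    have hfi : Function.Injective f := by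
      intro q₁ q₂ he
      have he' := QuotientGroup.eq.mp he
      have he2 : (q₁.out * x * q₁.out⁻¹)⁻¹ * (q₂.out * x * q₂.out⁻¹) ∈ center G := by
        simpa [Subgroup.mem_subgroupOf] using he'
      set u : G := (q₁.out * x * q₁.out⁻¹)⁻¹ * (q₂.out * x * q₂.out⁻¹) with hu
      have hut : q₁.out⁻¹ * u * q₁.out = u := by
        have := mem_center_iff.mp he2 q₁.out
        rw [mul_assoc, ← this]; group
      have he3 : (q₁.out⁻¹ * q₂.out) * x * (q₁.out⁻¹ * q₂.out)⁻¹ = x * u := by
        have : q₂.out * x * q₂.out⁻¹ = (q₁.out * x * q₁.out⁻¹) * u := by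
          rw [hu]; group
        calc (q₁.out⁻¹ * q₂.out) * x * (q₁.out⁻¹ * q₂.out)⁻¹
            = q₁.out⁻¹ * (q₂.out * x * q₂.out⁻¹) * q₁.out := by group
          _ = q₁.out⁻¹ * ((q₁.out * x * q₁.out⁻¹) * u) * q₁.out := by rw [this]
          _ = x * (q₁.out⁻¹ * u * q₁.out) := by group
          _ = x * u := by rw [hut]
      have ht := hT _ _ he2 he3
      have : ((q₁.out : G) : G ⧸ Cn z) = (q₂.out : G) := QuotientGroup.eq.mpr ht
      simpa using this
    have hnm : (1 : ↥A ⧸ (center G).subgroupOf A) ∉ Set.range f := by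
      rintro ⟨q, hq⟩
      have h1 : ((⟨q.out * x * q.out⁻¹, hmem _⟩ : A) : ↥A ⧸ (center G).subgroupOf A) = 1 := hq
      rw [QuotientGroup.eq_one_iff, Subgroup.mem_subgroupOf] at h1
      have h2 : q.out⁻¹ * (q.out * x * q.out⁻¹) * q.out⁻¹⁻¹ ∈ center G :=
        (inferInstance : (center G).Normal).conj_mem _ h1 _
      apply hx0
      have e : q.out⁻¹ * (q.out * x * q.out⁻¹) * q.out⁻¹⁻¹ = x := by group
      rwa [e] at h2
    have := Fintype.card_lt_of_injective_of_notMem f hfi hnm
    rw [← Nat.card_eq_fintype_card, ← Nat.card_eq_fintype_card] at this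
    have hi := index_Cn h hx0
    rw [hCx] at hi
    rw [← hi]
    exact this
  omega

end Pow

/-- Itô's structure theorem. -/
theorem main {G : Type*} [Group G] [Finite G] (n : ℕ) (hn : 1 < n)
    (h : ∀ x : G, (Subgroup.centralizer ({x} : Set G)).index = 1 ∨ (Subgroup.centralizer ({x} : Set G)).index = n) (hex : ∃ x : G, (Subgroup.centralizer ({x} : Set G)).index = n) :
    ∃ (p : ℕ) (_ : Fact p.Prime) (a : ℕ), n = p ^ a ∧ ∀ P : Sylow p G, (P : Subgroup G).Normal ∧
      (∃ N : Subgroup G, N.Normal ∧ N.IsComplement' (P : Subgroup G) ∧ IsMulCommutative N ∧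
        ∀ x ∈ N, ∀ y ∈ (P : Subgroup G), x * y = y * x) ∧
      ∃ A : Subgroup (P : Subgroup G), A.Normal ∧ IsMulCommutative A ∧ ∀ y : (P : Subgroup G), y ^ p ∈ A := by
  classical
  have hT : TwoSizes G n := h
  obtain ⟨x, hx⟩ := hex
  have hxZ : x ∉ center G := by
    intro h0
    have h1 : Cn x = ⊤ := Cn_eq_top_iff.mpr h0
    have h2 : (Cn x).index = 1 := by rw [h1]; exact Subgroup.index_top
    have h3 : (centralizer ({x} : Set G)).index = 1 := h2
    omega
  obtain ⟨p, k, hp, hxp, hxk⟩ := exists_primary_power x hxZ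
  have hsingle : ∀ (q : ℕ) (y : G), q.Prime → IsElt q y → y ∉ center G → q = p :=
    fun q y hq hy hyZ => (single_prime hT hp hq hxp hy hxk hyZ).symm
  have hZ : ∀ g : G, ∃ i, g ^ p ^ i ∈ center G := by
    intro g
    obtain ⟨a, m, hco, h1, h2, ha⟩ := exists_decomp g p hp
    refine ⟨a.factorization p, ?_⟩
    rw [← ha]
    by_contra hg
    obtain ⟨r, k', hr, hre, hrn⟩ := exists_primary_power (g ^ a) hg
    have hrp := hsingle r _ hr hre hrn
    subst hrp
    obtain ⟨e, he⟩ := hre
    have h3 : orderOf ((g ^ a) ^ k') ∣ r ^ e := orderOf_dvd_of_pow_eq_one he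
    have h4 : orderOf ((g ^ a) ^ k') ∣ orderOf (g ^ a) :=
      orderOf_dvd_of_pow_eq_one (by rw [← pow_mul, mul_comm, pow_mul, pow_orderOf_eq_one, one_pow])
    have h5 : orderOf ((g ^ a) ^ k') = 1 :=
      Nat.Coprime.eq_one_of_dvd (Nat.Coprime.coprime_dvd_left h4 (Nat.Coprime.pow_right _ h2)) h3
    rw [orderOf_eq_one_iff] at h5
    rw [h5] at hrn
    exact hrn (center G).one_mem
  haveI hpf : Fact p.Prime := ⟨hp⟩
  have hQ : IsPGroup p (G ⧸ center G) := isPGroup_quot hZ
  obtain ⟨e, he⟩ := IsPGroup.iff_card.mp hQ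
  have hZi : (center G).index = p ^ e := by rw [Subgroup.index_eq_card, he]
  have hnd : n ∣ p ^ e := by
    rw [← hZi, ← hx]
    exact Subgroup.index_dvd_of_le (center_le_Cn x)
  obtain ⟨a, _, ha⟩ := (Nat.dvd_prime_pow hp).mp hnd
  refine ⟨p, hpf, a, ha, ?_⟩
  intro P
  have hsup : (P : Subgroup G) ⊔ center G = ⊤ := by
    have h1 : ((P : Subgroup G) ⊔ center G).index ∣ (P : Subgroup G).index :=
      Subgroup.index_dvd_of_le le_sup_left
    have h2 : ((P : Subgroup G) ⊔ center G).index ∣ p ^ e := by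
      rw [← hZi]; exact Subgroup.index_dvd_of_le le_sup_right
    have h3 : (p ^ e).Coprime (P : Subgroup G).index :=
      Nat.Coprime.pow_left _ ((Nat.Prime.coprime_iff_not_dvd hp).mpr P.not_dvd_index)
    have h4 : ((P : Subgroup G) ⊔ center G).index = 1 :=
      Nat.Coprime.eq_one_of_dvd (Nat.Coprime.coprime_dvd_left h2 h3) h1
    exact Subgroup.index_eq_one.mp h4
  have hdec : ∀ g : G, ∃ b ∈ (P : Subgroup G), ∃ z ∈ center G, b * z = g := by
    intro g
    have h1 : g ∈ (↑((P : Subgroup G) ⊔ center G) : Set G) := by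
      rw [hsup]; trivial
    rw [Subgroup.mul_normal] at h1
    obtain ⟨b, hb, z, hz, he⟩ := Set.mem_mul.mp h1
    exact ⟨b, hb, z, hz, he⟩
  have hPn : (P : Subgroup G).Normal := by
    constructor
    intro c hc g
    obtain ⟨b, hb, z, hz, rfl⟩ := hdec g
    have e1 : b * z * c * (b * z)⁻¹ = b * c * b⁻¹ := by
      have := mem_center_iff.mp hz c
      calc b * z * c * (b * z)⁻¹ = b * (z * c) * z⁻¹ * b⁻¹ := by group
        _ = b * (c * z) * z⁻¹ * b⁻¹ := by rw [← this]
        _ = b * c * b⁻¹ := by group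
    rw [e1]
    exact (P : Subgroup G).mul_mem ((P : Subgroup G).mul_mem hb hc) ((P : Subgroup G).inv_mem hb)
  have hPall : ∀ c : G, IsElt p c → c ∈ (P : Subgroup G) := by
    intro c hc
    have hzp : IsPGroup p (zpowers c) := by
      rintro ⟨g, k₀, rfl⟩
      obtain ⟨a₀, ha₀⟩ := hc
      refine ⟨a₀, Subtype.ext ?_⟩
      show (c ^ k₀) ^ p ^ a₀ = 1
      rw [← zpow_natCast, ← zpow_mul, mul_comm, zpow_mul, zpow_natCast, ha₀, one_zpow]
    obtain ⟨S, hS⟩ := IsPGroup.exists_le_sylow hzp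
    haveI := Sylow.unique_of_normal P hPn
    have : S = P := Subsingleton.elim _ _
    rw [← this]
    exact hS (mem_zpowers c)
  -- the complement
  let N : Subgroup G :=
    { carrier := {z | z ∈ center G ∧ (orderOf z).Coprime p}
      mul_mem' := by
        rintro c d ⟨hc, hc'⟩ ⟨hd, hd'⟩
        refine ⟨(center G).mul_mem hc hd, ?_⟩
        have h1 : Commute c d := (mem_center_iff.mp hc d).symm
        exact Nat.Coprime.coprime_dvd_left h1.orderOf_mul_dvd_mul_orderOf
          (Nat.Coprime.mul_left hc' hd')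
      one_mem' := ⟨(center G).one_mem, by simp⟩
      inv_mem' := by
        rintro c ⟨hc, hc'⟩
        exact ⟨(center G).inv_mem hc, by rwa [orderOf_inv]⟩ }
  have hNZ : N ≤ center G := fun c hc => hc.1
  have hNn : N.Normal := by
    constructor
    rintro c hc g
    have := mem_center_iff.mp hc.1 g
    rw [this]
    simpa using hc
  have hdisj : Disjoint N (P : Subgroup G) := by
    rw [Subgroup.disjoint_def]
    rintro c ⟨_, hc⟩ hc'
    obtain ⟨k₁, hk₁⟩ := P.2 ⟨c, hc'⟩
    have h1 : c ^ p ^ k₁ = 1 := by simpa using congrArg Subtype.val hk₁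
    have h2 : orderOf c ∣ p ^ k₁ := orderOf_dvd_of_pow_eq_one h1
    have h3 : orderOf c = 1 := Nat.Coprime.eq_one_of_dvd (Nat.Coprime.pow_right _ hc) h2
    exact orderOf_eq_one_iff.mp h3
  have hNP : N ⊔ (P : Subgroup G) = ⊤ := by
    rw [eq_top_iff, ← hsup]
    apply sup_le le_sup_right
    intro z hz
    obtain ⟨a₁, m₁, hco, h1, h2, _⟩ := exists_decomp z p hp
    apply mem_of_pow_mem_of_coprime hco
    · exact (le_sup_left : N ≤ N ⊔ (P : Subgroup G)) ⟨(center G).pow_mem hz _, h2⟩
    · exact (le_sup_right : (P : Subgroup G) ≤ N ⊔ (P : Subgroup G)) (hPall _ h1)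
  refine ⟨hPn, ⟨N, hNn, ?_, ?_, ?_⟩, center _, inferInstance, inferInstance, ?_⟩
  · apply Subgroup.isComplement'_of_disjoint_and_mul_eq_univ hdisj
    rw [← Subgroup.mul_normal, hNP]
    rfl
  · constructor
    constructor
    rintro ⟨c, hc⟩ ⟨d, hd⟩
    apply Subtype.ext
    exact (mem_center_iff.mp (hNZ hc) d).symm
  · intro c hc d _
    exact (mem_center_iff.mp (hNZ hc) d).symm
  · intro y
    rw [Subgroup.mem_center_iff]
    intro w
    apply Subtype.ext
    exact mem_center_iff.mp (pow_mem_center hT hp hZ (y : G)) (w : G)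

end Cfsg.Agent.Lib.Ito.Main
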